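import Groth.Prelude.Def_FSch3
import Mathlib.RingTheory.LocalRing.ResidueField.Basic
import Mathlib.RingTheory.Localization.AtPrime.Basic

/-!
# Residue fields of the stalk ring of a formal spectrum

For `𝔭 ⊇ J` the maps `stalkSubring A J 𝔭 → cAtPrime A J 𝔭` and `A_𝔭 → cAtPrime A J 𝔭` induce bijections on
residue fields.
-/

set_option autoImplicit false
universe u

namespace Groth.Agent.Fcompl.H551.StalkRes

open FSch

section Compl

variable {S T : Type u} [CommRing S] [CommRing T] (I : Ideal S) (K : Ideal T) (g : S →+* T)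

theorem evalₐ_complMap (h : I.map g ≤ K) (n : ℕ) (x : AdicCompletion I S) :
    AdicCompletion.evalₐ K n (complMap I K g h x) =
      Ideal.quotientMap (K ^ n) g (pow_le_comap_pow_of_map_le I K g h n) (AdicCompletion.evalₐ I n x) := by
  refine AdicCompletion.evalₐ_liftRingHom K
    (fun n => (Ideal.quotientMap (K ^ n) g (pow_le_comap_pow_of_map_le I K g h n)).comp
      (AdicCompletion.evalₐ I n).toRingHom) ?_ n x
  intro m n hle
  apply RingHom.ext
  intro x
  obtain ⟨y, rfl⟩ := AdicCompletion.mk_surjective I S x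
  simp only [RingHom.coe_comp, Function.comp_apply, AlgHom.toRingHom_eq_coe, AlgHom.coe_toRingHom,
    AdicCompletion.evalₐ_mk, Ideal.quotientMap_mk, Ideal.Quotient.factorPow, Ideal.Quotient.factor_mk]
  rw [Ideal.Quotient.eq]
  have hy := y.2 hle
  rw [SModEq.sub_mem] at hy
  simp only [smul_eq_mul, Ideal.mul_top] at hy
  rw [← map_sub]
  have hy' : (y : ℕ → S) n - (y : ℕ → S) m ∈ I ^ m := by
    rw [← neg_sub]; exact (I ^ m).neg_mem hy
  exact pow_le_comap_pow_of_map_le I K g h m hy'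

/-- The completed map is compatible with the maps from the rings. -/
theorem complMap_algebraMap (h : I.map g ≤ K) (s : S) :
    complMap I K g h (algebraMap S (AdicCompletion I S) s) =
      algebraMap T (AdicCompletion K T) (g s) := by
  apply AdicCompletion.ext_evalₐ
  intro n
  rw [evalₐ_complMap, AlgHom.commutes, AlgHom.commutes]
  simp

end Compl

section Stalk

variable (A : Type u) [CommRing A] (J : Ideal A) (𝔭 : Ideal A) [𝔭.IsPrime]

theorem cAwayToAtPrime_algebraMap (f : A) (hf : f ∉ 𝔭) (s : Localization.Away f) :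
    cAwayToAtPrime A J 𝔭 f hf (algebraMap _ _ s) =
      algebraMap (Localization.AtPrime 𝔭) (cAtPrime A J 𝔭) (awayToAtPrime A 𝔭 f hf s) :=
  complMap_algebraMap _ _ _ _ s

/-- Elements of `A_𝔭` are in the stalk ring. -/
theorem algebraMap_mem_stalkSubring (a : Localization.AtPrime 𝔭) :
    algebraMap (Localization.AtPrime 𝔭) (cAtPrime A J 𝔭) a ∈ stalkSubring A J 𝔭 := by
  obtain ⟨r, s, rfl⟩ := IsLocalization.exists_mk'_eq 𝔭.primeCompl a
  have hs : (s : A) ∉ 𝔭 := s.2
  have h1 : awayToAtPrime A 𝔭 (s : A) hs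
      (IsLocalization.mk' (Localization.Away (s : A)) r ⟨(s : A), Submonoid.mem_powers _⟩) =
      IsLocalization.mk' (Localization.AtPrime 𝔭) r s := by
    rw [IsLocalization.eq_mk'_iff_mul_eq]
    have h2 : algebraMap A (Localization.AtPrime 𝔭) (s : A) =
        awayToAtPrime A 𝔭 (s : A) hs (algebraMap A (Localization.Away (s : A)) (s : A)) := by
      simp [awayToAtPrime]
    rw [h2, ← map_mul]
    have h3 := IsLocalization.mk'_spec (Localization.Away (s : A)) r
      (⟨(s : A), Submonoid.mem_powers _⟩ : Submonoid.powers (s : A))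
    rw [h3]
    simp [awayToAtPrime]
  rw [← h1, ← cAwayToAtPrime_algebraMap A J 𝔭 (s : A) hs]
  exact (le_iSup (fun f : {f : A // f ∉ 𝔭} => (cAwayToAtPrime A J 𝔭 f.1 f.2).range) ⟨(s : A), hs⟩)
    ⟨_, rfl⟩

theorem map_ne_top (hJ : J ≤ 𝔭) : J.map (algebraMap A (Localization.AtPrime 𝔭)) ≠ ⊤ := by
  intro h
  have h1 : J.map (algebraMap A (Localization.AtPrime 𝔭)) ≤
      IsLocalRing.maximalIdeal (Localization.AtPrime 𝔭) := by
    refine (Ideal.map_mono hJ).trans ?_
    rw [Localization.AtPrime.map_eq_maximalIdeal]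
  rw [h] at h1
  exact (IsLocalRing.maximalIdeal.isMaximal _).ne_top (top_le_iff.mp h1)

/-- Every element of `A{S⁻¹}` is congruent to an element of `A_𝔭` modulo the maximal ideal. -/
theorem exists_sub_mem (hJ : J ≤ 𝔭) [IsLocalRing (cAtPrime A J 𝔭)] (x : cAtPrime A J 𝔭) :
    ∃ a : Localization.AtPrime 𝔭, algebraMap (Localization.AtPrime 𝔭) (cAtPrime A J 𝔭) a - x ∈
      IsLocalRing.maximalIdeal (cAtPrime A J 𝔭) := by
  have hne := map_ne_top A J 𝔭 hJ
  have : Nontrivial (Localization.AtPrime 𝔭 ⧸ J.map (algebraMap A (Localization.AtPrime 𝔭))) :=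
    Ideal.Quotient.nontrivial_iff.mpr hne
  obtain ⟨a, ha⟩ := Ideal.Quotient.mk_surjective
    (AdicCompletion.evalOneₐ (J.map (algebraMap A (Localization.AtPrime 𝔭))) x)
  refine ⟨a, ?_⟩
  have hker : RingHom.ker (AdicCompletion.evalOneₐ (J.map (algebraMap A (Localization.AtPrime 𝔭)))) ≠ ⊤ :=
    RingHom.ker_ne_top _
  refine IsLocalRing.le_maximalIdeal hker ?_
  rw [RingHom.mem_ker, map_sub, AlgHom.commutes, ← ha]
  simp

theorem bijective_residueMap_atPrime (hJ : J ≤ 𝔭) [IsLocalRing (cAtPrime A J 𝔭)]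
    [IsLocalHom (algebraMap (Localization.AtPrime 𝔭) (cAtPrime A J 𝔭))] :
    Function.Bijective
      (IsLocalRing.ResidueField.map (algebraMap (Localization.AtPrime 𝔭) (cAtPrime A J 𝔭))) := by
  refine ⟨RingHom.injective _, fun y => ?_⟩
  obtain ⟨x, rfl⟩ := IsLocalRing.residue_surjective y
  obtain ⟨a, ha⟩ := exists_sub_mem A J 𝔭 hJ x
  refine ⟨IsLocalRing.residue _ a, ?_⟩
  rw [IsLocalRing.ResidueField.map_residue]
  exact Ideal.Quotient.eq.mpr ha

theorem bijective_residueMap_stalkSubring (hJ : J ≤ 𝔭) [IsLocalRing (stalkSubring A J 𝔭)]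
    [IsLocalRing (cAtPrime A J 𝔭)] [IsLocalHom (stalkSubring A J 𝔭).subtype] :
    Function.Bijective (IsLocalRing.ResidueField.map (stalkSubring A J 𝔭).subtype) := by
  refine ⟨RingHom.injective _, fun y => ?_⟩
  obtain ⟨x, rfl⟩ := IsLocalRing.residue_surjective y
  obtain ⟨a, ha⟩ := exists_sub_mem A J 𝔭 hJ x
  refine ⟨IsLocalRing.residue _ ⟨_, algebraMap_mem_stalkSubring A J 𝔭 a⟩, ?_⟩
  rw [IsLocalRing.ResidueField.map_residue]
  exact Ideal.Quotient.eq.mpr ha

end Stalk

end Groth.Agent.Fcompl.H551.StalkRes
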